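import Cfsg.Agent.H672.Main
import Cfsg.Agent.H696.PSq.Defs

/-!
# S4844, PS-8: coprime action with small orbits on characters (helper510)

* `ab_aux` : a `p`-group acting faithfully on an abelian `p'`-group with all orbits of length at most `p` has order at
  most `p`.
-/

set_option autoImplicit false
set_option linter.style.haveILetI false

namespace Cfsg.Agent.H510.Jump

open Subgroup

universe u v

theorem index_eq_of_le {p : ℕ} [hp : Fact p.Prime] {A : Type*} [Group A] [Finite A] (hA : IsPGroup p A)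
    {H : Subgroup A} (h : H.index ≤ p) (h1 : H ≠ ⊤) : H.index = p := by
  obtain ⟨k, hk⟩ := hA.index H
  have hk0 : k ≠ 0 := by
    rintro rfl
    rw [pow_zero, index_eq_one] at hk
    exact h1 hk
  refine le_antisymm h ?_
  rw [hk]
  exact Nat.le_self_pow hk0 p

theorem normal_of_index_le {p : ℕ} [hp : Fact p.Prime] {A : Type*} [Group A] [Finite A] (hA : IsPGroup p A)
    {H : Subgroup A} (h : H.index ≤ p) : H.Normal := by
  by_cases h1 : H = ⊤
  · rw [h1]; infer_instance
  have h2 := index_eq_of_le hA h h1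
  obtain ⟨k, hk⟩ := hA.exists_card_eq
  have hk0 : k ≠ 0 := by
    rintro rfl
    rw [pow_zero] at hk
    have h3 := H.index_dvd_card
    rw [h2, hk] at h3
    exact hp.out.one_lt.ne' (Nat.dvd_one.1 h3)
  refine normal_of_index_eq_minFac_card ?_
  rw [h2, hk, hp.out.pow_minFac hk0]

theorem eq_of_pow_eq {M : Type*} [CommGroup M] [Finite M] {n : ℕ} (hn : (Nat.card M).Coprime n) {x y : M}
    (h : x ^ n = y ^ n) : x = y := (Nat.Coprime.pow_left_bijective hn).1 h

/-- the norm over a subgroup -/
noncomputable def nm {A : Type*} [Group A] [Finite A] {M : Type*} [CommGroup M] [MulDistribMulAction A M]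
    (B : Subgroup A) (m : M) : M :=
  letI := Fintype.ofFinite B
  ∏ x : B, (x : A) • m

section

variable {A : Type*} [Group A] [Finite A] {M : Type*} [CommGroup M] [MulDistribMulAction A M] (B : Subgroup A)

theorem nm_mul (m m' : M) : nm B (m * m') = nm B m * nm B m' := by
  unfold nm
  simp only [smul_mul']
  rw [Finset.prod_mul_distrib]

theorem nm_one : nm B (1 : M) = 1 := by
  unfold nm
  simp

theorem nm_inv (m : M) : nm B m⁻¹ = (nm B m)⁻¹ := by
  rw [eq_inv_iff_mul_eq_one, ← nm_mul, inv_mul_cancel, nm_one]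

theorem nm_pow (m : M) (n : ℕ) : nm B (m ^ n) = nm B m ^ n := by
  induction n with
  | zero => rw [pow_zero, pow_zero, nm_one]
  | succ n ih => rw [pow_succ, pow_succ, nm_mul, ih]

theorem nm_fix {m : M} (h : ∀ x ∈ B, x • m = m) : nm B m = m ^ Nat.card B := by
  unfold nm
  letI := Fintype.ofFinite B
  rw [Finset.prod_congr rfl (fun (x : B) _ => h x x.2), Finset.prod_const, Finset.card_univ, Nat.card_eq_fintype_card]

theorem smul_nm [hB : B.Normal] (g : A) (m : M) : g • nm B m = nm B (g • m) := by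
  unfold nm
  letI := Fintype.ofFinite B
  rw [Finset.smul_prod']
  refine Fintype.prod_equiv ((MulAut.conjNormal g : MulAut B).toEquiv) _ _ (fun x => ?_)
  show g • ((x : A) • m) = ((MulAut.conjNormal g x : B) : A) • (g • m)
  rw [MulAut.conjNormal_apply, smul_smul, smul_smul]
  congr 1
  group

theorem smul_nm_of_mem {x : A} (hx : x ∈ B) (m : M) : x • nm B m = nm B m := by
  unfold nm
  letI := Fintype.ofFinite B
  rw [Finset.smul_prod']
  refine Fintype.prod_equiv (Equiv.mulLeft (⟨x, hx⟩ : B)) _ _ (fun y => ?_)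
  show x • ((y : A) • m) = ((⟨x, hx⟩ * y : B) : A) • m
  rw [smul_smul]
  rfl

end

/-- a `p`-group acting faithfully on an abelian `p'`-group with orbits of length at most `p` -/
theorem ab_aux {p : ℕ} [hp : Fact p.Prime] {A : Type*} [Group A] [Finite A] (hA : IsPGroup p A) {M : Type*}
    [CommGroup M] [Finite M] [MulDistribMulAction A M] (hM : ¬ p ∣ Nat.card M)
    (hf : ∀ a : A, (∀ m : M, a • m = m) → a = 1) (h : ∀ m : M, (MulAction.stabilizer A m).index ≤ p) :
    Nat.card A ≤ p := by
  by_contra hcon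
  push Not at hcon
  obtain ⟨k, hk⟩ := hA.exists_card_eq
  -- a moved element
  obtain ⟨l₁, hl₁⟩ : ∃ l₁ : M, MulAction.stabilizer A l₁ ≠ ⊤ := by
    by_contra hc
    push Not at hc
    have h1 : Subsingleton A := by
      refine ⟨fun a b => ?_⟩
      rw [hf a (fun m => MulAction.mem_stabilizer_iff.1 (hc m ▸ mem_top a)),
        hf b (fun m => MulAction.mem_stabilizer_iff.1 (hc m ▸ mem_top b))]
    have h2 : Nat.card A = 1 := Nat.card_unique
    have := hp.out.one_lt
    omega
  set B := MulAction.stabilizer A l₁ with hB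
  have hBi : B.index = p := index_eq_of_le hA (h l₁) hl₁
  have hBn : B.Normal := normal_of_index_le hA (h l₁)
  set n := Nat.card B with hn
  have hBc : n * p = Nat.card A := by rw [← hBi, hn]; exact B.card_mul_index
  have hn1 : n ≠ 1 := by
    intro h1
    rw [h1, one_mul] at hBc
    omega
  have hcop : (Nat.card M).Coprime n := by
    have h1 : n ∣ p ^ k := by rw [← hk, ← hBc]; exact Dvd.intro _ rfl
    exact (((Nat.Prime.coprime_iff_not_dvd hp.out).2 hM).symm.pow_right k).coprime_dvd_right h1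
  obtain ⟨b, hbB, hb1⟩ : ∃ b ∈ B, b ≠ 1 := by
    have h1 : B ≠ ⊥ := fun h1 => hn1 (by rw [hn, h1, card_bot])
    obtain ⟨x, hx⟩ := B.ne_bot_iff_exists_ne_one.1 h1
    exact ⟨x, x.2, fun h2 => hx (Subtype.ext h2)⟩
  obtain ⟨μ, hμ⟩ : ∃ μ : M, b • μ ≠ μ := by
    by_contra hc
    push Not at hc
    exact hb1 (hf b hc)
  set ν := μ ^ n * (nm B μ)⁻¹ with hν
  have hνb : b • ν ≠ ν := by
    intro h1
    apply hμ
    apply eq_of_pow_eq hcop
    rw [hν, smul_mul', smul_inv', smul_nm_of_mem B hbB, smul_pow', mul_left_inj] at h1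
    exact h1
  have hνn : nm B ν = 1 := by
    rw [hν, nm_mul, nm_inv, nm_pow, nm_fix B (m := nm B μ) (fun x hx => smul_nm_of_mem B hx μ), mul_inv_cancel]
  have hl₁n : nm B l₁ = l₁ ^ n := nm_fix B (fun x hx => MulAction.mem_stabilizer_iff.1 hx)
  have hst : MulAction.stabilizer A (l₁ * ν) < B := by
    refine lt_of_le_of_ne ?_ ?_
    · intro g hg
      rw [MulAction.mem_stabilizer_iff] at hg
      have h1 : g • nm B (l₁ * ν) = nm B (l₁ * ν) := by rw [smul_nm, hg]
      rw [nm_mul, hνn, mul_one, hl₁n, smul_pow'] at h1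
      exact MulAction.mem_stabilizer_iff.2 (eq_of_pow_eq hcop h1)
    · intro h1
      have h2 : b ∈ MulAction.stabilizer A (l₁ * ν) := h1 ▸ hbB
      rw [MulAction.mem_stabilizer_iff, smul_mul', MulAction.mem_stabilizer_iff.1 hbB, mul_right_inj] at h2
      exact hνb h2
  have h1 := h (l₁ * ν)
  have h2 : B.index < (MulAction.stabilizer A (l₁ * ν)).index := by
    exact index_strictAnti hst
  omega

end Cfsg.Agent.H510.Jump
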