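import Cfsg.Agent.H510.Jump.Nab
import Cfsg.Agent.Lib.Cores

/-!
# S4844, PS-8: reduction to coprime actions (helper510)
-/

set_option autoImplicit false
set_option linter.style.haveILetI false
set_option linter.unusedSectionVars false

namespace Cfsg.Agent.H510.Jump

open Subgroup Cfsg Cfsg.Agent.Characters.Core Cfsg.Agent.H672

universe u v

/-- the action on the linear characters -/
@[reducible] def actHom {A : Type*} [Group A] {W : Type*} [Group W] (φ : A →* MulAut W) :
    MulDistribMulAction A (W →* ℂˣ) where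
  smul a l := l.comp (φ a⁻¹ : MulAut W).toMonoidHom
  one_smul l := by
    ext x
    show ((l (φ (1 : A)⁻¹ x) : ℂˣ) : ℂ) = l x
    rw [inv_one, map_one]; rfl
  mul_smul a b l := by
    ext x
    show ((l (φ (a * b)⁻¹ x) : ℂˣ) : ℂ) = l (φ b⁻¹ (φ a⁻¹ x))
    rw [mul_inv_rev, map_mul]; rfl
  smul_mul a l m := rfl
  smul_one a := rfl

/-- **Small orbits on the characters of an abelian group.** -/
theorem ab_small {p : ℕ} [hp : Fact p.Prime] {A : Type*} [Group A] [Finite A] (hA : IsPGroup p A) {W : Type*}
    [Group W] [Finite W] (hab : IsMulCommutative W) (hcop : ¬ p ∣ Nat.card W) (φ : A →* MulAut W)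
    (hφ : Function.Injective φ) (hS : Small p φ) : Nat.card A ≤ p := by
  letI : CommGroup W := { (inferInstance : Group W) with mul_comm := fun a b => hab.is_comm.comm a b }
  letI := actHom φ
  have e := (CommGroup.monoidHom_mulEquiv_of_hasEnoughRootsOfUnity W ℂ).some
  have hfin : Finite (W →* ℂˣ) := Finite.of_equiv _ e.symm.toEquiv
  refine ab_aux hA (M := W →* ℂˣ) ?_ ?_ ?_
  · rw [Nat.card_congr e.toEquiv]
    exact hcop
  · intro a ha
    apply hφ
    rw [map_one]
    have h1 : φ a⁻¹ = 1 := by
      ext x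
      show φ a⁻¹ x = x
      rw [← CommGroup.forall_apply_eq_apply_iff W (M := ℂ)]
      intro l
      exact DFunLike.congr_fun (ha l) x
    rwa [map_inv, inv_eq_one] at h1
  · intro l
    refine le_trans (le_of_eq ?_) (hS (lf l) (isIrr_lf l))
    congr 1
    ext a
    rw [MulAction.mem_stabilizer_iff, ← inv_mem_iff (H := stab φ (lf l)), mem_stab]
    constructor
    · intro h x
      exact congrArg Units.val (DFunLike.congr_fun h x)
    · intro h
      ext x
      exact h x

/-- the normal `p`-subgroups of the centralizer of a normal `p'`-subgroup -/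
theorem centralizer_part {p : ℕ} [hp : Fact p.Prime] {G : Type u} [Group G] [Finite G] (hcore : pCore p G = ⊥)
    {V : Subgroup G} [hVn : V.Normal] {U : Subgroup G} [hUn : U.Normal] (hVU : V ≤ U) {k : ℕ}
    (hk : Nat.card U = p ^ k * Nat.card V) {a : G} (haU : a ∈ U)
    (hac : a ∈ centralizer (V : Set G)) {m : ℕ} (ham : a ^ p ^ m = 1) : a = 1 := by
  set D : Subgroup G := U ⊓ centralizer (V : Set G) with hD
  have hDn : D.Normal := inferInstance
  have hDU : D ≤ U := inf_le_left
  -- `D` is nilpotent
  let f : D →* G ⧸ V := (QuotientGroup.mk' V).comp D.subtype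
  have hfr : IsPGroup p f.range := by
    have h1 : f.range ≤ U.map (QuotientGroup.mk' V) := by
      rintro _ ⟨x, rfl⟩
      exact mem_map_of_mem _ (hDU x.2)
    have h2 : Nat.card (U.map (QuotientGroup.mk' V)) = p ^ k := by
      have h3 : Nat.card (U.map (QuotientGroup.mk' V)) = V.relIndex U := by
        rw [← relIndex_ker, QuotientGroup.ker_mk']
      rw [h3]
      have h4 : Nat.card V * V.relIndex U = Nat.card U := by
        rw [← relIndex_bot_left, ← relIndex_bot_left]
        exact relIndex_mul_relIndex ⊥ V U bot_le hVU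
      rw [hk, mul_comm] at h4
      exact Nat.eq_of_mul_eq_mul_right Nat.card_pos h4
    exact (IsPGroup.of_card h2).to_le h1
  have hnr : Group.IsNilpotent f.range := hfr.isNilpotent
  have hnil : Group.IsNilpotent D := by
    refine Subgroup.isNilpotent_of_ker_le_center f.rangeRestrict ?_
    intro x hx
    rw [MonoidHom.ker_rangeRestrict, MonoidHom.mem_ker] at hx
    have h1 : (x : G) ∈ V := (QuotientGroup.eq_one_iff (N := V) (x : G)).1 hx
    rw [mem_center_iff]
    intro y
    exact Subtype.ext (mem_centralizer_iff.1 y.2.2 _ h1).symm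
  obtain ⟨Q⟩ : Nonempty (Sylow p D) := inferInstance
  have hQn : (Q : Subgroup D).Normal := by
    have h1 := ((Group.isNilpotent_of_finite_tfae (G := D)).out 0 3).1 hnil
    exact h1 p hp Q
  have hQc : (Q : Subgroup D).Characteristic := Q.characteristic_of_normal hQn
  have hQG : ((Q : Subgroup D).map D.subtype).Normal := ConjAct.normal_of_characteristic_of_normal
  have hQb : (Q : Subgroup D) = ⊥ := by
    have h1 := Lib.Cores.le_pCore hQG (Q.isPGroup'.map D.subtype)
    rw [hcore, le_bot_iff, map_eq_bot_iff_of_injective _ D.subtype_injective] at h1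
    exact h1
  have hDp : ¬ p ∣ Nat.card D := by
    intro h1
    have h2 := Q.dvd_card_of_dvd_card h1
    rw [hQb, card_bot] at h2
    exact hp.out.one_lt.ne' (Nat.dvd_one.1 h2)
  have h1 : orderOf a ∣ p ^ m := orderOf_dvd_of_pow_eq_one ham
  have h2 : orderOf a ∣ Nat.card D := by
    have h3 : orderOf (⟨a, haU, hac⟩ : D) ∣ Nat.card D := _root_.orderOf_dvd_natCard _
    rwa [← orderOf_coe] at h3
  have h3 : orderOf a ∣ 1 := by
    rw [← ((Nat.Prime.coprime_iff_not_dvd hp.out).2 hDp).pow_left m]
    exact Nat.dvd_gcd h1 h2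
  exact orderOf_eq_one_iff.1 (Nat.dvd_one.1 h3)

/-- **The coprime action.** -/
theorem exists_action {p : ℕ} [hp : Fact p.Prime] {G : Type u} [Group G] [Finite G]
    (hyp : Cfsg.Agent.H696.PSq.Hyp p G) (hcore : pCore p G = ⊥) {V : Subgroup G} [hVn : V.Normal]
    (hcop : ¬ p ∣ Nat.card V) {U : Subgroup G} [hUn : U.Normal] (hVU : V ≤ U) {k : ℕ}
    (hk : Nat.card U = p ^ k * Nat.card V) :
    ∃ (A : Type u) (_ : Group A) (_ : Finite A) (φ : A →* MulAut ↥V), IsPGroup p A ∧ Nat.card A = p ^ k ∧
      Function.Injective φ ∧ Small p φ := by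
  classical
  obtain ⟨P⟩ : Nonempty (Sylow p U) := inferInstance
  set V' : Subgroup U := V.subgroupOf U with hV'
  let e : V' ≃* V := subgroupOfEquivOfLe hVU
  let φ₀ : (P : Subgroup U) →* MulAut V' := (MulAut.conjNormal : U →* MulAut V').comp (P : Subgroup U).subtype
  let φ : (P : Subgroup U) →* MulAut V := (MulAut.congr e).toMonoidHom.comp φ₀
  have hφ : ∀ (a : (P : Subgroup U)) (x : V), φ a x = e (φ₀ a (e.symm x)) := fun a x => rfl
  have hconj : ∀ (a : (P : Subgroup U)) (x : V), ((φ a x : V) : G) = ((a : U) : G) * x * ((a : U) : G)⁻¹ := by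
    intro a x
    rfl
  refine ⟨(P : Subgroup U), inferInstance, inferInstance, φ, P.isPGroup', ?_, ?_, ?_⟩
  · rw [P.card_eq_multiplicity, hk, Nat.factorization_mul (pow_ne_zero _ hp.out.ne_zero) Nat.card_pos.ne',
      Finsupp.add_apply, hp.out.factorization_pow, Finsupp.single_eq_same, Nat.factorization_eq_zero_of_not_dvd hcop,
      add_zero]
  · rw [injective_iff_map_eq_one]
    intro a ha
    obtain ⟨m, hm⟩ := P.isPGroup' a
    have h1 : ((a : U) : G) = 1 := by
      refine centralizer_part hcore hVU hk (a : U).2 ?_ (m := m) ?_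
      · rw [mem_centralizer_iff]
        intro x hx
        have h2 := hconj a ⟨x, hx⟩
        rw [ha, MulAut.one_apply] at h2
        have h3 : x = ((a : U) : G) * x * ((a : U) : G)⁻¹ := h2
        rw [eq_mul_inv_iff_mul_eq] at h3
        exact h3
      · have h2 := congrArg (fun z : (P : Subgroup U) => ((z : U) : G)) hm
        simpa using h2
    exact Subtype.ext (Subtype.ext h1)
  · intro θ hθ
    have hθ' : IsIrrCharacter V' (θ ∘ e) := isIrr_comp e.toMonoidHom e.surjective hθ
    have h1 : (inertia V' (θ ∘ e)).index ≤ p := by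
      obtain ⟨χ, hχ, hov⟩ := exists_over V' (θ ∘ e) hθ'
      have h2 := index_dvd_of_over hχ hθ' hov
      have h3 : ¬ p ^ 2 ∣ charDegree χ := by
        intro h4
        apply hyp
        exact H33.IM.of_normal U ⟨⟨χ, hχ⟩, h4⟩
      have h4 : (inertia V' (θ ∘ e)).index ∣ p ^ k := by
        have h5 : V'.index = p ^ k := by
          have h6 : Nat.card V * V.relIndex U = Nat.card U := by
            rw [← relIndex_bot_left, ← relIndex_bot_left]
            exact relIndex_mul_relIndex ⊥ V U bot_le hVU
          rw [hk, mul_comm] at h6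
          exact Nat.eq_of_mul_eq_mul_right Nat.card_pos h6
        rw [← h5]
        exact index_dvd_of_le (le_inertia (isIrr_isClassFunction hθ'))
      obtain ⟨j, hj, hj'⟩ := (Nat.dvd_prime_pow hp.out).1 h4
      have h5 : j ≤ 1 := by
        by_contra hcon
        push Not at hcon
        apply h3
        rw [hj'] at h2
        exact (pow_dvd_pow p hcon).trans h2
      rw [hj']
      calc p ^ j ≤ p ^ 1 := Nat.pow_le_pow_right hp.out.pos h5
        _ = p := pow_one p
    have h2 : stab φ θ = (inertia V' (θ ∘ e)).subgroupOf (P : Subgroup U) := by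
      ext a
      rw [mem_stab, mem_subgroupOf, mem_inertia, funext_iff]
      constructor
      · intro h x
        have := h (e x)
        rw [hφ, MulEquiv.symm_apply_apply] at this
        exact this
      · intro h x
        have := h (e.symm x)
        rw [hφ]
        simp only [Function.comp, MulEquiv.apply_symm_apply] at this
        exact this
    rw [h2]
    refine le_trans ?_ h1
    have h3 : (inertia V' (θ ∘ e)).relIndex ⊤ ≠ 0 := by
      rw [relIndex_top_right]; exact index_ne_zero_of_finite
    have h4 := relIndex_le_of_le_right (H := inertia V' (θ ∘ e)) (le_top (a := (P : Subgroup U))) h3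
    rw [relIndex_top_right] at h4
    exact h4

/-- **PS-8 for an abelian `V`.** -/
theorem jump_ab {p : ℕ} [hp : Fact p.Prime] {G : Type u} [Group G] [Finite G] (hyp : Cfsg.Agent.H696.PSq.Hyp p G)
    (hcore : pCore p G = ⊥) {V : Subgroup G} [V.Normal] (hab : IsMulCommutative V)
    (hcop : ¬ p ∣ Nat.card V) {U : Subgroup G} [U.Normal] (hVU : V ≤ U) {k : ℕ}
    (hk : Nat.card U = p ^ k * Nat.card V) : k ≤ 1 := by
  obtain ⟨A, iA, iA', φ, hA, hAc, hφ, hS⟩ := exists_action hyp hcore hcop hVU hk
  have h1 := ab_small hA hab hcop φ hφ hS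
  rw [hAc] at h1
  by_contra hcon
  push Not at hcon
  have h2 : p ^ 2 ≤ p ^ k := Nat.pow_le_pow_right hp.out.pos hcon
  have h3 := hp.out.one_lt
  nlinarith

end Cfsg.Agent.H510.Jump
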